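import Mathlib
import Cfsg.Agent.H967.ThInv
import Cfsg.Agent.H967.ThRgd
import Cfsg.Agent.H967.FaBase
import Cfsg.Agent.KFacts.RgdChevCoord
import Cfsg.Agent.Nodes.KindChev
import Cfsg.Agent.S1054
import Cfsg.Agent.S2122

/-!
# S4834: `Good p` for `F₄(q)`, `p ∣ q`, `p > 3` (helper967)
-/

set_option autoImplicit false
set_option linter.unusedSectionVars false

namespace Cfsg.Agent.H967.ThF4

open CoxeterSystem Cfsg.Agent.ChevalleyStructure.CoxeterGeom Cfsg.Agent.Tits.Roots Cfsg.Agent.Tits.Core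
  Cfsg.Agent.Tits.Exchange Cfsg.Agent.Nodes.Reps Cfsg.Agent.Nodes.BNOf Cfsg.Agent.Nodes.StabComb
  Cfsg.Agent.Nodes.Bruhat Cfsg.Agent.Nodes.OppDec Cfsg.Agent.Nodes.LeviDec Cfsg.Agent.Nodes.NormX
  Cfsg.Agent.KFacts.RgdOpp Cfsg.Agent.KFacts.RgdAut Cfsg.Agent.KFacts.RgdDiag Cfsg.Agent.KFacts.RgdAutFacts
  Cfsg.Agent.KFacts.RgdField Cfsg.Agent.KFacts.RgdChevCoord Cfsg.Agent.Nodes.RGDChev
  Cfsg.Agent.Nodes.KindChev Cfsg.Agent.H687 Cfsg.Agent.H967.ThRgd Cfsg.Agent.H967.ThInv
open Cfsg.Lie Cfsg.Agent.ChevalleyStructure Cfsg.Agent.ChevalleyStructure.Elts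
  Cfsg.Agent.ChevalleyStructure.RootVec Cfsg.Agent.H967.CopMat Cfsg.Agent.H967.CopChev
  Cfsg.Agent.ChevalleyStructure.NPerm Cfsg.Agent.ChevalleyStructure.CoxeterGeomTypes

universe u

/-- Facts about the highest root `t`. -/
structure TD (D : ChevalleyDatum) (l t : ℕ) (d : Fin l → ℤ) : Prop where
  lt : t < D.nroots
  hd : ∀ i j, d i * cartanOf D l i j = d j * cartanOf D l j i
  high : ∀ r < D.nroots, ∀ k : Fin l, vec D l r k ≤ vec D l t k
  dom : ∀ i : Fin l, 0 ≤ D.cartan i t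
  n1 : ∃ j : Fin l, D.cartan j t % 2 = 1
  n3 : ∀ r < D.nroots, qf (cartanOf D l) d (vec D l r) (vec D l r) = qf (cartanOf D l) d (vec D l t) (vec D l t) →
    r ≠ t → ∃ j : Fin l, D.cartan j t - D.cartan j r ≠ 0 ∧ -4 < D.cartan j t - D.cartan j r ∧
      D.cartan j t - D.cartan j r < 4

set_option backward.isDefEq.respectTransparency false in
theorem td4 : TD chevF4 4 47 ![1, 1, 2, 2] := by
  constructor <;> decide +kernel

section

variable {D : ChevalleyDatum} {l : ℕ} {M : CoxeterMatrix (Fin l)} (hp : IsType D l M) {K : Type u} [Field K]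
  {W : Type*} [Group W] (cs : CoxeterSystem M W) {t : ℕ} {d : Fin l → ℤ}

theorem fullChar' (j : Fin l) {x : Fin l → ℤ} (hx : IsRoot cs hp.isCartan x) {a : K} (ha : a ≠ 0) :
    ch (K := K) hp x (hc hp j a) = a ^ pairing (cartanOf D l) j x := by
  obtain ⟨r, hr, rfl⟩ := (isRoot_iff hp cs x).1 hx
  rw [ch_hc hp j ha hr, pairing_vec hp j hr]

include hp in
/-- a root group of a positive root commutes with the one of the highest root -/
theorem comm_high (T : TD D l t d) {r : ℕ} (hr : r < D.nroots) (h0 : 0 ≤ vec D l r) (hrt : r ≠ t) {u v : ↥(D.group K)}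
    (hu : u ∈ XX D l K (vec D l r)) (hv : v ∈ XX D l K (vec D l t)) : u * v = v * u := by
  have hne : r ≠ D.neg t := by
    rintro rfl
    rw [vec_neg hp T.lt] at h0
    have h2 : vec D l t = 0 := by
      funext k
      have h3 := h0 k
      have h4 := T.high _ (neg_lt hp.inList T.lt) k
      rw [vec_neg hp T.lt, Pi.neg_apply] at h4
      have h3' : 0 ≤ -(vec D l t k) := h3
      have h4' : -(vec D l t k) ≤ vec D l t k := h4
      show vec D l t k = 0
      omega
    let cs' : CoxeterSystem M M.Group := M.toCoxeterSystem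
    exact (isRoot_vec hp cs' T.lt).ne_zero h2
  rw [Subgroup.mem_subgroupOf, XV_vec hp K hr, mem_rootSubgroup_iff hp.inList] at hu
  rw [Subgroup.mem_subgroupOf, XV_vec hp K T.lt, mem_rootSubgroup_iff hp.inList] at hv
  obtain ⟨a, ha⟩ := hu
  obtain ⟨b, hb⟩ := hv
  have hnil : D.commTerms t r = [] := by
    rw [List.eq_nil_iff_forall_not_mem]
    rintro ⟨v, C, i, j⟩ hv
    obtain ⟨h1, -, -, h2, h3, h4⟩ := commTerms_rt hp.checked hv
    let cs' : CoxeterSystem M M.Group := M.toCoxeterSystem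
    apply (isRoot_vec hp cs' hr).ne_zero
    funext k
    have h5 := h4 k
    have h6 := T.high v h1 k
    have h7 := h0 k
    rw [← vec_apply (l := l), ← vec_apply (l := l), ← vec_apply (l := l)] at h5
    have h8 := T.high _ (neg_lt hp.inList T.lt) k
    rw [vec_neg hp T.lt, Pi.neg_apply] at h8
    rw [Pi.zero_apply] at h7 ⊢
    have h2' : (1 : ℤ) ≤ (i : ℤ) := by exact_mod_cast h2
    have h3' : (1 : ℤ) ≤ (j : ℤ) := by exact_mod_cast h3
    have h9 : 0 ≤ vec D l t k := by omega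
    nlinarith
  have h1 := comm_xG hp T.lt hr hrt hne (K := K) (-b) (-a)
  have h2 : wordG hp.inList (D.commWord K t r (-b) (-a)) = 1 := by
    have : D.commWord K t r (-b) (-a) = [] := by
      unfold ChevalleyDatum.commWord
      rw [hnil]; rfl
    rw [this]; rfl
  rw [h2, xG_inv, xG_inv, _root_.neg_neg, _root_.neg_neg, commutatorElement_eq_one_iff_mul_comm, ← ha, ← hb] at h1
  exact Subtype.ext h1

include cs in
theorem B_le_high [Finite K] {p : ℕ} [Fact p.Prime] [CharP K p] (T : TD D l t d) :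
    RGD.B cs hp.isCartan (TT D K) (XX D l K) ≤ Subgroup.normalizer (XX D l K (vec D l t) : Set ↥(D.group K)) := by
  have R : RGD cs hp.isCartan p (TT D K) (nc hp K) (XX D l K) := rgd (K := K) hp cs p
  refine sup_le (fun s hs => ?_) (RGD.Sup_le fun x hx => ?_)
  · rw [mem_normalizer_iff_cj]; exact R.tor _ (isRoot_vec hp cs T.lt) s hs
  · obtain ⟨hx, h0⟩ := hx
    obtain ⟨r, hr, rfl⟩ := (isRoot_iff hp cs x).1 hx
    by_cases hrt : r = t
    · subst hrt; exact Subgroup.le_normalizer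
    · intro u hu
      rw [mem_normalizer_iff_cj]
      ext v
      rw [mem_cj]
      constructor
      · intro hv
        have h1 := comm_high hp T hr h0 hrt hu hv
        have h2 : v = u * (u⁻¹ * v * u) * u⁻¹ := by group
        rw [h2, h1]
        have h3 : u⁻¹ * v * u * u * u⁻¹ = u⁻¹ * v * u := by group
        rw [h3]; exact hv
      · intro hv
        have h1 := comm_high hp T hr h0 hrt hu hv
        have h2 : u⁻¹ * v * u = v := by rw [mul_assoc, ← h1, inv_mul_cancel_left]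
        rw [h2]; exact hv

/-- field automorphisms fix the representatives of the Weyl group -/
theorem fieldAut_nc (τ : K ≃+* K) (i : Fin l) : fieldAut (stab_group D K) τ (nc hp K i) = nc hp K i := by
  have h1 : nc hp K i = (⟨xG hp.inList (D.simple i) 1, xG_mem_group hp.inList _ _⟩ : ↥(D.group K)) *
      ((⟨xG hp.inList (D.neg (D.simple i)) (-(1 : K)⁻¹), xG_mem_group hp.inList _ _⟩ : ↥(D.group K)) *
      (⟨xG hp.inList (D.simple i) 1, xG_mem_group hp.inList _ _⟩ : ↥(D.group K))) :=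
    Subtype.ext (nG_def hp.inList (D.simple i) (1 : K))
  have h2 : ∀ (r : ℕ) (a : K), fieldAut (stab_group D K) τ
      (⟨xG hp.inList r a, xG_mem_group hp.inList _ _⟩ : ↥(D.group K)) =
      ⟨xG hp.inList r (τ a), xG_mem_group hp.inList _ _⟩ := fun r a => FaBase.fieldAut_xe hp.inList τ r a
  rw [h1, map_mul, map_mul, h2, h2, map_neg, map_inv₀, map_one]

theorem fieldAut_xc (τ : K ≃+* K) (r : ℕ) (a : K) :
    fieldAut (stab_group D K) τ (xc hp (vec D l r) a) = xc hp (vec D l r) (τ a) :=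
  FaBase.fieldAut_xe hp.inList τ _ a

/-- every element over `w` is a product of the `n i` and an element of `T` -/
theorem exists_mem_closure [Finite W] {p : ℕ} (R : RGD cs hp.isCartan p (TT D K) (nc hp K) (XX D l K)) {w : W} {k : ↥(D.group K)}
    (hk : Rp cs R.nsys w k) : ∃ m ∈ Subgroup.closure (Set.range (nc hp K)), ∃ s ∈ TT D K, Rp cs R.nsys w m ∧ k = m * s := by
  obtain ⟨ω, rfl⟩ := cs.wordProd_surjective w
  induction ω generalizing k with
  | nil =>
    rw [wordProd_nil] at hk ⊢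
    exact ⟨1, one_mem _, k, hk.mem_of_one, rp_of_mem (one_mem _), (one_mul k).symm⟩
  | cons i ω ih =>
    rw [wordProd_cons] at hk ⊢
    have h1 : Rp cs R.nsys (cs.wordProd ω) ((nc hp K i)⁻¹ * k) := by
      have := (rp_simple cs R.nsys i).inv.mul hk
      rwa [inv_mul_cancel_left] at this
    obtain ⟨m, hm, s, hs, hmw, e⟩ := ih h1
    refine ⟨nc hp K i * m, mul_mem (Subgroup.subset_closure ⟨i, rfl⟩) hm, s, hs, (rp_simple cs R.nsys i).mul hmw, ?_⟩
    rw [mul_assoc, ← e, mul_inv_cancel_left]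

/-- the products of the `n i` represent elements of the Weyl group -/
theorem rp_of_mem_closure [Finite W] {p : ℕ} (R : RGD cs hp.isCartan p (TT D K) (nc hp K) (XX D l K)) {m : ↥(D.group K)}
    (hm : m ∈ Subgroup.closure (Set.range (nc hp K))) : ∃ w, Rp cs R.nsys w m := by
  induction hm using Subgroup.closure_induction with
  | mem x hx =>
    obtain ⟨i, rfl⟩ := hx
    exact ⟨_, rp_simple cs R.nsys i⟩
  | one => exact ⟨1, rp_of_mem (one_mem _)⟩
  | mul x y _ _ hx hy =>
    obtain ⟨w, hw⟩ := hx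
    obtain ⟨v, hv⟩ := hy
    exact ⟨_, hw.mul hv⟩
  | inv x _ hx =>
    obtain ⟨w, hw⟩ := hx
    exact ⟨_, hw.inv⟩

include hp cs in
/-- **`Good p` from the facts about the highest root.** -/
theorem good_of_td [Fintype K] {p : ℕ} [Fact p.Prime] [CharP K p] (h3 : 3 < p) [IsSimpleGroup ↥(D.group K)]
    (T : TD D l t d) (hna : ∃ a b : ↥(D.group K), a * b ≠ b * a) (hcyc : IsCyclic (Cfsg.Out ↥(D.group K)))
    (hout : ∀ φ : MulAut ↥(D.group K), ∃ g τ, φ = MulAut.conj g * fieldAut (stab_group D K) τ) :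
    Good p ↥(D.group K) := by
  have := finite_W hp cs
  have R : RGD cs hp.isCartan p (TT D K) (nc hp K) (XX D l K) := rgd (K := K) hp cs p
  have C := coords (K := K) hp cs p
  have hθ : IsRoot cs hp.isCartan (vec D l t) := isRoot_vec hp cs T.lt
  have hdom : Dom (cartanOf D l) (vec D l t) := fun i => by
    rw [pairing_vec hp i T.lt]; exact T.dom i
  have hG : GG cs hp.isCartan (TT D K) (XX D l K) = ⊤ := by
    have := gen (K := K) hp cs p
    rw [eq_top_iff, ← this]
    exact sup_le (B_le_GG) (NN_le_GG R)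
  have L : Long R (vec D l t) (XX D l K (vec D l t)) := long_X R hθ hdom (B_le_high hp cs (p := p) T)
  have hCθ := C.coord _ hθ
  have hz : ∀ y, y ∈ XX D l K (vec D l t) ↔ ∃ a, xc hp (vec D l t) a = y := hCθ.mem
  have hpair : ∀ (w : W) (r : ℕ), r < D.nroots → rep cs hp.isCartan w (vec D l t) = vec D l r →
      ∀ j, pairing (cartanOf D l) j (rep cs hp.isCartan w (vec D l t)) = D.cartan j r := by
    intro w r hr e j
    rw [e, pairing_vec hp j hr]
  have hqf : ∀ (w : W) (r : ℕ), rep cs hp.isCartan w (vec D l t) = vec D l r →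
      qf (cartanOf D l) d (vec D l r) (vec D l r) = qf (cartanOf D l) d (vec D l t) (vec D l t) := by
    intro w r e
    rw [← e, qf_rep cs hp.isCartan T.hd]
  have hwit : ∀ (w : W) (k : ↥(D.group K)), Rp cs R.nsys w k → ∀ j : Fin l, Wit (xc hp (vec D l t)) k
      (pairing (cartanOf D l) j (vec D l t)) (pairing (cartanOf D l) j (rep cs hp.isCartan w (vec D l t))) := by
    intro w k hk j a
    have hT : hc hp j (a : K) ∈ TT D K := hc_mem hp j a.ne_zero
    have hT' : k⁻¹ * hc hp j (a : K) * k ∈ TT D K := by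
      have := (Subgroup.mem_normalizer_iff.1 (inv_mem hk.mem_normalizer) (hc hp j (a : K))).1 hT
      rwa [inv_inv] at this
    refine ⟨hc hp j (a : K), fun b => ?_, fun b => ?_⟩
    · rw [hCθ.act _ hT, fullChar' hp cs j hθ a.ne_zero, Units.val_zpow_eq_zpow_val]
    · rw [hCθ.act _ hT']
      congr 2
      have h1 := C.chi_rp R.nsys hk hθ hT'
      have h2 : k * (k⁻¹ * hc hp j (a : K) * k) * k⁻¹ = hc hp j (a : K) := by group
      rw [h2, fullChar' hp cs j (hθ.act w) a.ne_zero] at h1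
      rw [← h1, Units.val_zpow_eq_zpow_val]
  obtain ⟨w₀, hw₀⟩ := exists_neg (cs := cs) (h := hp.isCartan) hθ
  obtain ⟨x₀, hx₀⟩ := exists_rp cs R.nsys w₀
  have hfix : ∀ φ : MulAut ↥(D.group K), ∃ s : ↥(D.group K),
      (∀ a, ∃ b, s * φ (xc hp (vec D l t) a) * s⁻¹ = xc hp (vec D l t) b) ∧
      ∀ n ∈ (Subgroup.closure (Set.range (nc hp K)) : Set ↥(D.group K)), s * φ n * s⁻¹ = n := by
    intro φ
    obtain ⟨g, τ, rfl⟩ := hout φ
    have hsimp : ∀ y, g⁻¹ * (MulAut.conj g * fieldAut (stab_group D K) τ) y * g⁻¹⁻¹ = fieldAut (stab_group D K) τ y := by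
      intro y
      rw [MulAut.mul_apply, MulAut.conj_apply]
      group
    refine ⟨g⁻¹, fun a => ⟨τ a, ?_⟩, fun n hn => ?_⟩
    · rw [hsimp, fieldAut_xc hp τ t]
    · rw [hsimp]
      have h4 : Subgroup.closure (Set.range (nc hp K)) ≤
          (fieldAut (stab_group D K) τ).toMonoidHom.eqLocus (MonoidHom.id _) := by
        rw [Subgroup.closure_le]
        rintro _ ⟨i, rfl⟩
        exact fieldAut_nc hp τ i
      exact h4 hn
  refine good_of_fix (p := p) (z := xc hp (vec D l t)) hCθ.add hCθ.inj h3 hna (fun φ => ?_) ?_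
    (Subgroup.closure (Set.range (nc hp K)) : Set ↥(D.group K)) ?_ x₀ ?_ ?_ ?_ ?_ ?_ hcyc hfix
  · obtain ⟨s, hs, -⟩ := hfix φ
    exact ⟨s, hs⟩
  · obtain ⟨S, hS⟩ := Cfsg.Agent.KFacts.RgdAutFacts.exists_sylow R hG
    refine ⟨S, fun u hu => ?_⟩
    rw [hS] at hu
    exact nrm_of_mem L hz (L.B (le_sup_right (a := TT D K) hu))
  · intro y
    obtain ⟨w, b₁, hb₁, k, hk, b₂, hb₂, e⟩ := (mem_GG R).1 (show y ∈ GG cs hp.isCartan (TT D K) (XX D l K) by
      rw [hG]; exact Subgroup.mem_top _)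
    obtain ⟨m, hm, s, hs, -, e'⟩ := exists_mem_closure hp cs R hk
    refine ⟨b₁⁻¹, (s * b₂)⁻¹, nrm_of_mem L hz (L.B (inv_mem hb₁)),
      nrm_of_mem L hz (L.B (inv_mem (mul_mem (RGD.T_le_B hs) hb₂))), ?_⟩
    have : b₁⁻¹ * y * (s * b₂)⁻¹ = m := by rw [e, e']; group
    rw [this]
    exact hm
  · obtain ⟨j, hj⟩ := T.n1
    have := hwit 1 1 (rp_of_mem (one_mem _)) j
    rw [map_one, Module.End.one_apply, pairing_vec hp j T.lt] at this
    exact ⟨_, Int.odd_iff.2 hj, this⟩
  · intro m hm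
    obtain ⟨w, hk⟩ := rp_of_mem_closure hp cs R hm
    by_cases e1 : rep cs hp.isCartan w (vec D l t) = vec D l t
    · exact Or.inl (nrm_rp L hz hk e1)
    · right
      obtain ⟨r, hr, e⟩ := (isRoot_iff hp cs _).1 (hθ.act w)
      obtain ⟨j, hj0, hj1, hj2⟩ := T.n3 r hr (hqf w r e.symm) (fun h1 => e1 (by rw [← e, h1]))
      refine ⟨_, _, hwit w m hk j, ?_⟩
      rw [hpair w r hr e.symm, pairing_vec hp j T.lt]
      intro hdvd
      have hp5 : (5 : ℤ) ≤ p := by
        have h5 : p ≠ 4 := by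
          rintro rfl
          have := (inferInstance : Fact (Nat.Prime 4)).out
          norm_num at this
        have : 5 ≤ p := by omega
        exact_mod_cast this
      have h4 := Int.natAbs_dvd_natAbs.2 hdvd
      have h6 := Nat.le_of_dvd (Int.natAbs_pos.2 hj0) h4
      omega
  · refine nrm_rp L hz (hx₀.mul hx₀) ?_
    rw [rep_mul_apply, hw₀, map_neg, hw₀, _root_.neg_neg]
  · exact x2 L hz hCθ.inj hCθ.add hG hx₀ hw₀
  · exact x3 L hz hCθ.inj hCθ.add hx₀ hw₀

end

/-! ### `F₄` -/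

theorem isType4 : IsType chevF4 4 CoxeterMatrix.F₄ := by simp [IsType, typeList]

theorem chevF4_inList : InList chevF4 := by simp [InList]

/-- The outer automorphisms of `F₄(q)`, `q` odd, are field automorphisms. -/
theorem out_f4 {K : Type u} [Field K] [Fintype K] {p : ℕ} [Fact p.Prime] [CharP K p] (hp : 3 < p) :
    ∃ τ : K ≃+* K, ∀ x : Cfsg.Out ↥(chevF4.group K), ∃ k : ℕ,
      x = QuotientGroup.mk (fieldAut (stab_group chevF4 K) (τ ^ k)) := by
  obtain ⟨n, -, hn⟩ := FiniteField.card K p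
  obtain ⟨τ, hτ⟩ := exists_ringAut p (n : ℕ) hn
  have hcard := S2122.result (F := K) p n hn
  have hgcd : Nat.gcd 2 p = 1 := by
    rw [← Nat.coprime_iff_gcd_eq_one, Nat.coprime_primes Nat.prime_two Fact.out]
    omega
  rw [hgcd, one_mul] at hcard
  let f : (K ≃+* K) →* Cfsg.Out ↥(chevF4.group K) :=
    (QuotientGroup.mk' (Cfsg.Inn ↥(chevF4.group K))).comp (fieldAut (stab_group chevF4 K))
  have hf : Function.Injective f := by
    rw [injective_iff_map_eq_one]
    intro σ hσ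
    by_contra h1
    exact FaBase.not_inner chevF4_inList σ h1 ((QuotientGroup.eq_one_iff _).1 hσ)
  have hord : orderOf (f τ) = n := by rw [orderOf_injective f hf, hτ]
  have : Finite (MulAut ↥(chevF4.group K)) := Finite.of_injective (fun σ => (σ : _ → _)) DFunLike.coe_injective
  have htop : Subgroup.zpowers (f τ) = ⊤ := by
    apply Subgroup.eq_top_of_card_eq
    rw [Nat.card_zpowers, hord, hcard]
  refine ⟨τ, fun x => ?_⟩
  have hx : x ∈ Subgroup.zpowers (f τ) := by rw [htop]; exact Subgroup.mem_top x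
  obtain ⟨k, hk⟩ := mem_powers_iff_mem_zpowers.2 hx
  refine ⟨k, ?_⟩
  rw [← hk]
  show (f τ) ^ k = f (τ ^ k)
  rw [map_pow]

/-- **Row `F₄(q)`, `p ∣ q`.** -/
theorem good_F4 {p : ℕ} [Fact p.Prime] (hp : 3 < p) {F : Type u} [Field F] [Finite F] [CharP F p] :
    Cfsg.Agent.H687.Good p ↥(Cfsg.Lie.chevF4.group F) := by
  have : Fintype F := Fintype.ofFinite F
  obtain ⟨hs, hna⟩ := Cfsg.Agent.S1054.result (F := F) chevF4 (by simp)
  have hna' : ∃ a b : ↥(chevF4.group F), a * b ≠ b * a := by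
    by_contra hcon
    push Not at hcon
    exact hna ⟨⟨hcon⟩⟩
  obtain ⟨τ, hτ⟩ := out_f4 (K := F) hp
  refine good_of_td isType4 CoxeterMatrix.F₄.toCoxeterSystem hp td4 hna' ?_ ?_
  · refine ⟨⟨QuotientGroup.mk (fieldAut (stab_group chevF4 F) τ), fun x => ?_⟩⟩
    obtain ⟨k, hk⟩ := hτ x
    refine ⟨k, ?_⟩
    rw [hk, map_pow]
    rfl
  · intro φ
    obtain ⟨k, hk⟩ := hτ (QuotientGroup.mk φ)
    have h1 : φ⁻¹ * fieldAut (stab_group chevF4 F) (τ ^ k) ∈ Cfsg.Inn ↥(chevF4.group F) := QuotientGroup.eq.1 hk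
    have h2 : (fieldAut (stab_group chevF4 F) (τ ^ k))⁻¹ * φ ∈ Cfsg.Inn ↥(chevF4.group F) := by
      have := inv_mem h1
      rwa [mul_inv_rev, inv_inv] at this
    have h3 : φ * (fieldAut (stab_group chevF4 F) (τ ^ k))⁻¹ ∈ Cfsg.Inn ↥(chevF4.group F) := by
      have hN : (Cfsg.Inn ↥(chevF4.group F)).Normal := inferInstance
      have := hN.conj_mem _ h2 (fieldAut (stab_group chevF4 F) (τ ^ k))
      rwa [mul_inv_cancel_left] at this
    obtain ⟨g, hg⟩ := h3
    refine ⟨g, τ ^ k, ?_⟩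
    rw [hg, inv_mul_cancel_right]

end Cfsg.Agent.H967.ThF4
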